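import Mathlib
import Cfsg.Agent.S0016
import Cfsg.Agent.S0106
import Cfsg.Agent.S2910

/-!
# Subgroups of index two in groups with a unique involution

`idx2_core`: a finite group of even order with at most one involution, cyclic Sylow subgroups for
odd primes and at most one subgroup of order three has a subgroup of index two, unless it is
solvable of order divisible by nine with non-abelian Sylow `2`-subgroups.
-/

set_option autoImplicit false

namespace Cfsg.Agent.Lib.Helper83

/-- `X` has a subgroup of index two (necessarily normal). -/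
def HasIdx2 (X : Type*) [Group X] : Prop := ∃ N : Subgroup X, N.index = 2

section Idx2

variable {X : Type*} [Group X]

theorem HasIdx2.of_surjective {Y : Type*} [Group Y] (f : X →* Y) (hf : Function.Surjective f)
    (h : HasIdx2 Y) : HasIdx2 X := by
  obtain ⟨N, hN⟩ := h
  exact ⟨N.comap f, by rw [Subgroup.index_comap_of_surjective _ hf, hN]⟩

theorem hasIdx2_of_index_two_pow [Finite X] (N : Subgroup X) [N.Normal] {k : ℕ} (hk : 1 ≤ k)
    (h : N.index = 2 ^ k) : HasIdx2 X := by
  have : Fact (Nat.Prime 2) := ⟨Nat.prime_two⟩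
  have hcard : Nat.card (X ⧸ N) = 2 ^ k := by rw [← Subgroup.index_eq_card]; exact h
  obtain ⟨M, hM⟩ := Sylow.exists_subgroup_card_pow_prime (G := X ⧸ N) 2 (n := k - 1)
    (by rw [hcard]; exact pow_dvd_pow 2 (by omega))
  apply HasIdx2.of_surjective (QuotientGroup.mk' N) (QuotientGroup.mk'_surjective N)
  refine ⟨M, ?_⟩
  have h1 := M.card_mul_index
  rw [hM, hcard] at h1
  have h2 : (2 : ℕ) ^ k = 2 ^ (k - 1) * 2 := by
    rw [← pow_succ]
    congr 1
    omega
  rw [h2] at h1
  exact Nat.eq_of_mul_eq_mul_left (by positivity) h1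

theorem hasIdx2_of_hasNormalPComplement [Finite X] (h : Cfsg.HasNormalPComplement 2 X)
    (heven : 2 ∣ Nat.card X) : HasIdx2 X := by
  have : Fact (Nat.Prime 2) := ⟨Nat.prime_two⟩
  obtain ⟨P, N, hN, hc⟩ := h
  have h1 : N.index = Nat.card P := hc.symm.index_eq_card
  have h2 : 1 ≤ (Nat.card X).factorization 2 :=
    Nat.Prime.factorization_pos_of_dvd Nat.prime_two Nat.card_pos.ne' heven
  exact hasIdx2_of_index_two_pow N h2 (h1.trans P.card_eq_multiplicity)

theorem hasIdx2_of_not_le_commutator [Finite X] (Q : Subgroup X) (hQ : IsPGroup 2 Q)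
    (h : ¬ Q ≤ commutator X) : HasIdx2 X := by
  classical
  obtain ⟨q, hqQ, hqc⟩ := SetLike.not_le_iff_exists.mp h
  obtain ⟨e, m, hm, hcard⟩ :=
    Nat.exists_eq_two_pow_mul_odd (n := Nat.card (Abelianization X)) Nat.card_pos.ne'
  obtain ⟨f, hf⟩ : ∃ f : X →* Abelianization X,
    f = (powMonoidHom m).comp Abelianization.of := ⟨_, rfl⟩
  have hfx : ∀ x, f x = (Abelianization.of x) ^ m := by
    intro x
    rw [hf]
    rfl
  have hP : IsPGroup 2 f.range := by
    rintro ⟨y, x, rfl⟩
    refine ⟨e, ?_⟩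
    apply Subtype.ext
    show (f x) ^ 2 ^ e = 1
    rw [hfx, ← pow_mul, mul_comm, ← hcard, pow_card_eq_one']
  obtain ⟨j, hj⟩ := hP.exists_card_eq
  have hj1 : 1 ≤ j := by
    by_contra hlt
    have hj0 : j = 0 := by omega
    rw [hj0, pow_zero] at hj
    have hfq : f q = 1 := by
      have hss : Subsingleton f.range := (Nat.card_eq_one_iff_unique.mp hj).1
      have h5 := Subsingleton.elim (⟨f q, q, rfl⟩ : f.range) 1
      exact congrArg Subtype.val h5
    obtain ⟨i, hi⟩ := hQ ⟨q, hqQ⟩
    have hi' : q ^ 2 ^ i = 1 := congrArg Subtype.val hi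
    have h1 : (Abelianization.of q) ^ m = 1 := by rw [← hfx]; exact hfq
    have h2 : (Abelianization.of q) ^ 2 ^ i = 1 := by rw [← map_pow, hi', map_one]
    have hcop : Nat.Coprime m (2 ^ i) := Nat.Coprime.pow_right i (Nat.coprime_two_right.mpr hm)
    have h3 := Nat.dvd_gcd (orderOf_dvd_of_pow_eq_one h1) (orderOf_dvd_of_pow_eq_one h2)
    rw [Nat.Coprime.gcd_eq_one hcop, Nat.dvd_one, orderOf_eq_one_iff] at h3
    apply hqc
    rw [← Abelianization.ker_of]
    exact MonoidHom.mem_ker.mpr h3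
  have hidx : f.ker.index = 2 ^ j := by rw [Subgroup.index_ker, hj]
  exact hasIdx2_of_index_two_pow f.ker hj1 hidx

theorem hasNormalPComplement_of_cyclic [Finite X] (Q : Sylow 2 X) (hQ : IsCyclic Q)
    (heven : 2 ∣ Nat.card X) : Cfsg.HasNormalPComplement 2 X := by
  have hp : (Nat.card X).minFac = 2 := (Nat.minFac_eq_two_iff _).mpr heven
  exact ⟨Q, _, inferInstance, IsCyclic.isComplement' hp hQ⟩

theorem sl23_central_sq (x : Matrix.SpecialLinearGroup (Fin 2) (ZMod 3))
    (hc : ∀ y, x * y = y * x) : x * x = 1 := by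
  have hu := hc ⟨!![1, 1; 0, 1], by simp [Matrix.det_fin_two]⟩
  have hv := hc ⟨!![1, 0; 1, 1], by simp [Matrix.det_fin_two]⟩
  obtain ⟨A, hA⟩ := x
  have hu' : A * !![1, 1; 0, 1] = !![1, 1; 0, 1] * A := congrArg Subtype.val hu
  have hv' : A * !![1, 0; 1, 1] = !![1, 0; 1, 1] * A := congrArg Subtype.val hv
  have e := Matrix.eta_fin_two A
  rw [e, Matrix.mul_fin_two, Matrix.mul_fin_two] at hu' hv'
  have h1 := congrFun (congrFun hu' 0) 0
  have h2 := congrFun (congrFun hu' 0) 1
  have h3 := congrFun (congrFun hv' 0) 0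
  simp at h1 h2 h3
  rw [Matrix.det_fin_two] at hA
  apply Subtype.ext
  show A * A = 1
  rw [e, Matrix.mul_fin_two, Matrix.one_fin_two]
  rw [h1, h3] at hA ⊢
  simp at hA ⊢
  have h4 : A 0 0 = A 1 1 := by linear_combination h2
  rw [h4] at hA ⊢
  exact ⟨hA, hA⟩

theorem sl23_three_dvd : 3 ∣ Nat.card (Matrix.SpecialLinearGroup (Fin 2) (ZMod 3)) := by
  obtain ⟨u, hu⟩ : ∃ u : Matrix.SpecialLinearGroup (Fin 2) (ZMod 3),
    u = ⟨!![1, 1; 0, 1], by simp [Matrix.det_fin_two]⟩ := ⟨_, rfl⟩
  have h3 : u ^ 3 = 1 := by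
    rw [hu]
    apply Subtype.ext
    show (!![1, 1; 0, 1] : Matrix (Fin 2) (Fin 2) (ZMod 3)) ^ 3 = 1
    rw [pow_succ, pow_two, Matrix.mul_fin_two, Matrix.mul_fin_two, Matrix.one_fin_two]
    decide
  have h1 : u ≠ 1 := by
    rw [hu]
    intro h
    have h' : (!![1, 1; 0, 1] : Matrix (Fin 2) (Fin 2) (ZMod 3)) = 1 := congrArg Subtype.val h
    have h'' := congrFun (congrFun h' 0) 1
    simp at h''
  have : Fact (Nat.Prime 3) := ⟨Nat.prime_three⟩
  have ho : orderOf u = 3 := orderOf_eq_prime h3 h1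
  have h := orderOf_dvd_natCard u
  rw [ho] at h
  exact h

/-- A `2`-group with at most one involution is cyclic or generalised quaternion. -/
theorem sylow2_cyc_or_quat {Y : Type*} [Group Y] [Finite Y]
    (hinv : ∀ x y : Y, orderOf x = 2 → orderOf y = 2 → x = y) (T : Sylow 2 Y) :
    IsCyclic T ∨ ∃ n : ℕ, 1 ≤ n ∧ Nonempty ((T : Subgroup Y) ≃* QuaternionGroup (2 ^ n)) := by
  have : Fact (Nat.Prime 2) := ⟨Nat.prime_two⟩
  have huniq : ∀ H K : Subgroup (T : Subgroup Y), Nat.card H = 2 → Nat.card K = 2 → H = K := by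
    have key : ∀ H : Subgroup (T : Subgroup Y), Nat.card H = 2 →
        ∃ x : (T : Subgroup Y), orderOf x = 2 ∧ Subgroup.zpowers x = H := by
      intro H hH
      have hne : H ≠ ⊥ := by
        intro h
        rw [h, Subgroup.card_bot] at hH
        omega
      obtain ⟨x, hx1⟩ := (Subgroup.ne_bot_iff_exists_ne_one).mp hne
      have ho : orderOf (x : (T : Subgroup Y)) = 2 := by
        have h1 := Subgroup.orderOf_dvd_natCard H x.2
        rw [hH] at h1
        rcases (Nat.dvd_prime Nat.prime_two).mp h1 with h | h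
        · exact absurd (orderOf_eq_one_iff.mp h) (fun h' => hx1 (Subtype.ext h'))
        · exact h
      refine ⟨x, ho, ?_⟩
      apply Subgroup.eq_of_le_of_card_ge
      · rw [Subgroup.zpowers_le]; exact x.2
      · rw [hH, Nat.card_zpowers, ho]
    intro H K hH hK
    obtain ⟨x, hx, rfl⟩ := key H hH
    obtain ⟨y, hy, rfl⟩ := key K hK
    have hxy : x = y := by
      apply Subtype.ext
      apply hinv
      · rw [Subgroup.orderOf_coe]; exact hx
      · rw [Subgroup.orderOf_coe]; exact hy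
    rw [hxy]
  rcases Cfsg.Agent.S0016.result (G := (T : Subgroup Y)) 2 T.isPGroup' huniq with h | ⟨-, n, ⟨e⟩⟩
  · exact Or.inl h
  · rcases Nat.eq_zero_or_pos n with h0 | h0
    · left
      subst h0
      have hc : IsCyclic (QuaternionGroup (2 ^ 0)) := by
        rw [pow_zero]; exact QuaternionGroup.quaternionGroup_one_isCyclic
      exact isCyclic_of_surjective e.symm e.symm.surjective
    · exact Or.inr ⟨n, h0, ⟨e⟩⟩

/-- Generalised quaternion groups of order at least eight are not commutative. -/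
theorem quat_not_comm {Y : Type*} [Group Y] {n : ℕ} (hn : 1 ≤ n)
    (e : Y ≃* QuaternionGroup (2 ^ n)) : ∃ x y : Y, x * y ≠ y * x := by
  refine ⟨e.symm (QuaternionGroup.a 1), e.symm (QuaternionGroup.xa 0), ?_⟩
  intro h
  rw [← map_mul, ← map_mul] at h
  have h1 := e.symm.injective h
  rw [QuaternionGroup.a_mul_xa, QuaternionGroup.xa_mul_a, QuaternionGroup.xa.injEq] at h1
  have h2 : ((2 : ℕ) : ZMod (2 * 2 ^ n)) = 0 := by
    have h3 : (2 : ZMod (2 * 2 ^ n)) = 0 := by linear_combination (-1 : ZMod (2 * 2 ^ n)) * h1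
    exact_mod_cast h3
  rw [ZMod.natCast_eq_zero_iff] at h2
  have h4 : 2 * 2 ^ n ≤ 2 := Nat.le_of_dvd (by norm_num) h2
  have h5 : 2 ^ 1 ≤ 2 ^ n := Nat.pow_le_pow_right (by norm_num) hn
  omega

/-- If the Sylow subgroups of `X` for the prime `p` are cyclic, so are those of a group embedding
into `X`. -/
theorem isCyclic_sylow_of_injective {Y : Type*} [Group Y] (f : Y →* X)
    (hf : Function.Injective f) {p : ℕ} [Fact p.Prime] (hX : ∀ Q : Sylow p X, IsCyclic Q)
    (P : Sylow p Y) : IsCyclic P := by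
  obtain ⟨Q, hQ⟩ := (P.2.map f).exists_le_sylow
  have hc := hX Q
  have h : Subgroup.map f P ≤ Q := hQ
  have h2 : IsCyclic (Subgroup.map f P) := Subgroup.isCyclic_of_le h
  exact isCyclic_of_surjective _ (Subgroup.equivMapOfInjective P f hf).symm.surjective

/-- With at most one involution and order prime to three, there is a normal `2`-complement. -/
theorem normal_two_compl_of_three_not_dvd {Y : Type*} [Group Y] [Finite Y]
    (hinv : ∀ x y : Y, orderOf x = 2 → orderOf y = 2 → x = y) (h3 : ¬ 3 ∣ Nat.card Y)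
    (heven : 2 ∣ Nat.card Y) : Cfsg.HasNormalPComplement 2 Y := by
  have : Fact (Nat.Prime 2) := ⟨Nat.prime_two⟩
  obtain ⟨T⟩ : Nonempty (Sylow 2 Y) := inferInstance
  rcases sylow2_cyc_or_quat hinv T with hc | ⟨n, hn, hq⟩
  · exact hasNormalPComplement_of_cyclic T hc heven
  · rcases Cfsg.Agent.S0106.result T n hn hq with h | ⟨L, K₀, hK₀, ⟨e⟩⟩
    · exact h
    · exfalso
      apply h3
      have h1 : 3 ∣ Nat.card (↥L ⧸ K₀.subgroupOf L) := by
        rw [Nat.card_congr e.toEquiv]
        exact sl23_three_dvd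
      exact (h1.trans (Subgroup.card_quotient_dvd_card _)).trans (Subgroup.card_subgroup_dvd_card L)

/-- The group-theoretic core: a subgroup of index two, or a solvable group of order divisible by
nine whose Sylow `2`-subgroups do not lie in a commutative subgroup containing all commutators. -/
theorem idx2_core [Finite X]
    (hinv : ∀ x y : X, orderOf x = 2 → orderOf y = 2 → x = y)
    (hsyl : ∀ r : ℕ, ∀ _ : Fact r.Prime, r ≠ 2 → ∀ P : Sylow r X, IsCyclic P)
    (h3 : ∀ A B : Subgroup X, Nat.card A = 3 → Nat.card B = 3 → A = B)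
    (heven : 2 ∣ Nat.card X) :
    HasIdx2 X ∨ (Group.IsSolvable X ∧ 9 ∣ Nat.card X ∧
      ∀ D : Subgroup X, (∀ x y : X, x * y * x⁻¹ * y⁻¹ ∈ D) →
        (∀ x ∈ D, ∀ y ∈ D, x * y = y * x) → HasIdx2 X) := by
  classical
  have : Fact (Nat.Prime 2) := ⟨Nat.prime_two⟩
  have : Fact (Nat.Prime 3) := ⟨Nat.prime_three⟩
  obtain ⟨T⟩ : Nonempty (Sylow 2 X) := inferInstance
  rcases sylow2_cyc_or_quat hinv T with hc | ⟨n, hn, ⟨eq⟩⟩
  · exact Or.inl (hasIdx2_of_hasNormalPComplement
      (hasNormalPComplement_of_cyclic T hc heven) heven)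
  obtain ⟨x₀, y₀, hxy₀⟩ := quat_not_comm hn eq
  rcases Cfsg.Agent.S0106.result T n hn ⟨eq⟩ with h2c | ⟨L, K₀, hK₀, ⟨e⟩⟩
  · exact Or.inl (hasIdx2_of_hasNormalPComplement h2c heven)
  have h3q : 3 ∣ Nat.card (↥L ⧸ K₀.subgroupOf L) := by
    rw [Nat.card_congr e.toEquiv]
    exact sl23_three_dvd
  have h3L : 3 ∣ Nat.card L := h3q.trans (Subgroup.card_quotient_dvd_card _)
  have h3dvd : 3 ∣ Nat.card X := h3L.trans (Subgroup.card_subgroup_dvd_card L)
  obtain ⟨c, hc3⟩ := exists_prime_orderOf_dvd_card' (G := X) 3 h3dvd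
  have hc1 : c ≠ 1 := by
    intro h
    rw [h, orderOf_one] at hc3
    omega
  have hccc : c ^ 3 = 1 := by
    rw [← hc3]
    exact pow_orderOf_eq_one c
  have hord3 : ∀ x : X, orderOf x = 3 → x ∈ Subgroup.zpowers c := by
    intro x hx
    have e1 : Subgroup.zpowers x = Subgroup.zpowers c :=
      h3 _ _ (by rw [Nat.card_zpowers, hx]) (by rw [Nat.card_zpowers, hc3])
    rw [← e1]
    exact Subgroup.mem_zpowers x
  have hmemC : ∀ x ∈ Subgroup.zpowers c, x = 1 ∨ x = c ∨ x = c⁻¹ := by
    intro x hx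
    have hx' : x ∈ Submonoid.powers c := mem_powers_iff_mem_zpowers.mpr hx
    obtain ⟨k, hk⟩ := hx'
    have hk' : c ^ k = x := hk
    rw [← hk', ← pow_mod_orderOf, hc3]
    have h2 : k % 3 < 3 := Nat.mod_lt k (by norm_num)
    obtain ⟨j, hj⟩ : ∃ j, j = k % 3 := ⟨_, rfl⟩
    rw [← hj] at h2 ⊢
    interval_cases j
    · left
      exact pow_zero c
    · right
      left
      exact pow_one c
    · right
      right
      apply eq_inv_of_mul_eq_one_left
      rw [← pow_succ]
      exact hccc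
  have hconj : ∀ g : X, g * c * g⁻¹ = c ∨ g * c * g⁻¹ = c⁻¹ := by
    intro g
    have ho : orderOf (g * c * g⁻¹) = 3 := by
      have h : g * c * g⁻¹ = (MulAut.conj g) c := by simp
      rw [h, MulEquiv.orderOf_eq]
      exact hc3
    rcases hmemC _ (hord3 _ ho) with h | h | h
    · exfalso
      rw [h, orderOf_one] at ho
      omega
    · exact Or.inl h
    · exact Or.inr h
  by_cases hcen : ∀ g : X, g * c * g⁻¹ = c
  swap
  · left
    push Not at hcen
    obtain ⟨g, hg⟩ := hcen
    have hg' : g * c * g⁻¹ = c⁻¹ := (hconj g).resolve_left hg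
    have hcc : c ≠ c⁻¹ := by
      intro h
      have h2 : c * c = 1 := by
        nth_rewrite 2 [h]
        exact mul_inv_cancel c
      apply hc1
      calc c = c ^ 3 * (c * c)⁻¹ := by group
        _ = 1 := by rw [hccc, h2]; simp
    refine ⟨Subgroup.centralizer {c}, ?_⟩
    have memZ : ∀ b : X, b ∈ Subgroup.centralizer ({c} : Set X) ↔ b * c * b⁻¹ = c := by
      intro b
      rw [Subgroup.mem_centralizer_iff]
      constructor
      · intro h
        have h5 := h c rfl
        rw [← h5]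
        group
      · intro h x hx
        rw [Set.mem_singleton_iff] at hx
        subst hx
        have h5 : b * x = x * b := by
          calc b * x = (b * x * b⁻¹) * b := by group
            _ = x * b := by rw [h]
        exact h5.symm
    rw [Subgroup.index_eq_two_iff]
    refine ⟨g, fun b => ?_⟩
    have e1 : (b * g) * c * (b * g)⁻¹ = b * (g * c * g⁻¹) * b⁻¹ := by group
    have e2 : b * c⁻¹ * b⁻¹ = (b * c * b⁻¹)⁻¹ := by group
    rcases hconj b with hb | hb
    · right
      refine ⟨(memZ b).mpr hb, ?_⟩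
      rw [memZ, e1, hg', e2, hb]
      exact fun h => hcc h.symm
    · left
      refine ⟨?_, ?_⟩
      · rw [memZ, e1, hg', e2, hb, inv_inv]
      · rw [memZ, hb]
        exact fun h => hcc h.symm
  have hcomm : ∀ g : X, g * c = c * g := by
    intro g
    calc g * c = (g * c * g⁻¹) * g := by group
      _ = c * g := by rw [hcen g]
  by_cases h9 : 9 ∣ Nat.card X
  swap
  · exfalso
    have hKn : (K₀.subgroupOf L).Normal := hK₀
    obtain ⟨l, hl⟩ := exists_prime_orderOf_dvd_card' (G := ↥L) 3 h3L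
    have hcL : c ∈ L := by
      have e1 : Subgroup.zpowers (l : X) = Subgroup.zpowers c :=
        h3 _ _ (by rw [Nat.card_zpowers, Subgroup.orderOf_coe, hl])
          (by rw [Nat.card_zpowers, hc3])
      have h5 : c ∈ Subgroup.zpowers (l : X) := by
        rw [e1]
        exact Subgroup.mem_zpowers c
      exact (Subgroup.zpowers_le.mpr l.2) h5
    obtain ⟨c', hc'⟩ : ∃ c' : ↥L, c' = ⟨c, hcL⟩ := ⟨_, rfl⟩
    have hc'3 : orderOf c' = 3 := by
      rw [← Subgroup.orderOf_coe, hc']
      exact hc3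
    have hc'K : c' ∉ K₀.subgroupOf L := by
      intro h
      apply h9
      have h1 : 3 ∣ Nat.card (K₀.subgroupOf L) := by
        rw [← hc'3]
        exact Subgroup.orderOf_dvd_natCard _ h
      have h2 := Subgroup.card_eq_card_quotient_mul_card_subgroup (K₀.subgroupOf L)
      have h3' : 9 ∣ Nat.card ↥L := by
        rw [h2]
        exact Nat.mul_dvd_mul h3q h1
      exact h3'.trans (Subgroup.card_subgroup_dvd_card L)
    obtain ⟨z, hz⟩ : ∃ z : Matrix.SpecialLinearGroup (Fin 2) (ZMod 3),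
      z = e (QuotientGroup.mk c') := ⟨_, rfl⟩
    have hzc : ∀ y, z * y = y * z := by
      intro y
      obtain ⟨q, rfl⟩ := e.surjective y
      obtain ⟨m, rfl⟩ := QuotientGroup.mk_surjective q
      rw [hz, ← map_mul, ← map_mul, ← QuotientGroup.mk_mul, ← QuotientGroup.mk_mul]
      congr 2
      apply Subtype.ext
      rw [hc']
      exact (hcomm (m : X)).symm
    have hz2 := sl23_central_sq z hzc
    have hc'cube : c' ^ 3 = 1 := by
      rw [← hc'3]
      exact pow_orderOf_eq_one c'
    have hz3 : z ^ 3 = 1 := by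
      rw [hz, ← map_pow, ← QuotientGroup.mk_pow, hc'cube, QuotientGroup.mk_one, map_one]
    have hz1 : z = 1 := by
      calc z = z ^ 3 * (z * z)⁻¹ := by group
        _ = 1 := by rw [hz3, hz2]; simp
    rw [hz] at hz1
    have h4 : (QuotientGroup.mk c' : ↥L ⧸ K₀.subgroupOf L) = 1 := by
      apply e.injective
      rw [hz1, map_one]
    exact hc'K ((QuotientGroup.eq_one_iff c').mp h4)
  right
  obtain ⟨P₃⟩ : Nonempty (Sylow 3 X) := inferInstance
  have hZ : Cfsg.omegaOne 3 (P₃ : Subgroup X) ≤ Subgroup.center X := by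
    rw [Cfsg.omegaOne, Subgroup.closure_le]
    rintro x ⟨-, hx3⟩
    have hxc : x ∈ Subgroup.zpowers c := by
      by_cases hx1 : x = 1
      · rw [hx1]
        exact Subgroup.one_mem _
      · exact hord3 x (orderOf_eq_prime hx3 hx1)
    have hcz : Subgroup.zpowers c ≤ Subgroup.center X := by
      rw [Subgroup.zpowers_le, Subgroup.mem_center_iff]
      intro g
      exact hcomm g
    exact hcz hxc
  obtain ⟨⟨P, N₃, hN₃n, hN₃c⟩, -⟩ :=
    Cfsg.Agent.S2910.result (p := 3) (by norm_num) h3dvd P₃ hZ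
  have hN₃3 : ¬ 3 ∣ Nat.card N₃ := by
    rw [← hN₃c.index_eq_card]
    exact P.not_dvd_index
  have hN₃card : Nat.card N₃ * Nat.card P = Nat.card X := hN₃c.card_mul_card
  obtain ⟨j, hj⟩ := P.isPGroup'.exists_card_eq
  have hN₃even : 2 ∣ Nat.card N₃ := by
    have h1 : 2 ∣ Nat.card N₃ * 3 ^ j := by
      rw [← hj, hN₃card]
      exact heven
    have hcop : Nat.Coprime 2 (3 ^ j) := Nat.Coprime.pow_right j (by norm_num)
    exact hcop.dvd_of_dvd_mul_right h1
  have hinv' : ∀ x y : ↥N₃, orderOf x = 2 → orderOf y = 2 → x = y := by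
    intro x y hx hy
    apply Subtype.ext
    apply hinv
    · rw [Subgroup.orderOf_coe]
      exact hx
    · rw [Subgroup.orderOf_coe]
      exact hy
  obtain ⟨T₃, O, hOn, hOc⟩ := normal_two_compl_of_three_not_dvd hinv' hN₃3 hN₃even
  have hOodd : ¬ 2 ∣ Nat.card O := by
    rw [← hOc.index_eq_card]
    exact T₃.not_dvd_index
  have hOZ : IsZGroup ↥O := by
    rw [isZGroup_iff]
    intro p hp P'
    have : Fact p.Prime := ⟨hp⟩
    by_cases hp2 : p = 2
    · subst hp2
      have h1 : Nat.card P' = 1 := by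
        obtain ⟨i, hi⟩ := P'.isPGroup'.exists_card_eq
        have h2 : Nat.card P' ∣ Nat.card O := Subgroup.card_subgroup_dvd_card _
        rcases Nat.eq_zero_or_pos i with h0 | h0
        · rw [hi, h0, pow_zero]
        · exfalso
          apply hOodd
          rw [hi] at h2
          exact (dvd_pow_self 2 h0.ne').trans h2
      have hss : Subsingleton P' := (Nat.card_eq_one_iff_unique.mp h1).1
      infer_instance
    · exact isCyclic_sylow_of_injective (N₃.subtype.comp O.subtype)
        (N₃.subtype_injective.comp O.subtype_injective) (fun Q => hsyl p ⟨hp⟩ hp2 Q) P'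
  have hOsolv : Group.IsSolvable ↥O := inferInstance
  have hQ1 : Group.IsSolvable (↥N₃ ⧸ O) := by
    have h1 : Nat.card (↥N₃ ⧸ O) = Nat.card T₃ := by
      rw [← Subgroup.index_eq_card]
      exact hOc.symm.index_eq_card
    obtain ⟨i, hi⟩ := T₃.isPGroup'.exists_card_eq
    have hP : IsPGroup 2 (↥N₃ ⧸ O) := IsPGroup.of_card (h1.trans hi)
    have hnil := hP.isNilpotent
    infer_instance
  have hN₃solv : Group.IsSolvable ↥N₃ :=
    Group.isSolvable_of_ker_le_range O.subtype (QuotientGroup.mk' O)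
      (by rw [QuotientGroup.ker_mk', Subgroup.range_subtype])
  have hQ2 : Group.IsSolvable (X ⧸ N₃) := by
    have h1 : Nat.card (X ⧸ N₃) = Nat.card P := by
      rw [← Subgroup.index_eq_card]
      exact hN₃c.symm.index_eq_card
    have hP : IsPGroup 3 (X ⧸ N₃) := IsPGroup.of_card (h1.trans hj)
    have hnil := hP.isNilpotent
    infer_instance
  have hXsolv : Group.IsSolvable X :=
    Group.isSolvable_of_ker_le_range N₃.subtype (QuotientGroup.mk' N₃)
      (by rw [QuotientGroup.ker_mk', Subgroup.range_subtype])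
  refine ⟨hXsolv, h9, ?_⟩
  intro D hD1 hD2
  apply hasIdx2_of_not_le_commutator (T : Subgroup X) T.isPGroup'
  intro hle
  have hcD : commutator X ≤ D := by
    rw [commutator_def, Subgroup.commutator_le]
    intro g₁ _ g₂ _
    rw [commutatorElement_def]
    exact hD1 g₁ g₂
  apply hxy₀
  apply Subtype.ext
  exact hD2 _ (hcD (hle x₀.2)) _ (hcD (hle y₀.2))

end Idx2

end Cfsg.Agent.Lib.Helper83
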